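import Cfsg.Agent.KZ.Mts.Ext
import Cfsg.Agent.DL.Ex.Fin_m3
import Cfsg.Agent.DL.PP.Cor
import Cfsg.Agent.FastGrp
import Cfsg.Agent.Prune
set_option linter.all false
prune_inst 0x7f00000000000000000000000000000000000000000000000000000000000000000000000000000000000000000000000000000000000000000000000000000000000000000000000000000000000000003fffffffffffffffffffffffffffbeffbdffffffff
open scoped Cfsg.Agent.FastGrp

-- part: MO/Ti/Coc
section
/-!
# The cocycle of the canonical representatives of the Weyl group (helper30)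

`hr D r` : the coroot of the root `r` as a homomorphism `kˣ →* Y`; `ls D u v` : the cocycle of Tits (formula of Langlands
and Shelstad); `nw_mul` : `n u * n v = ls u v * n (u v)`.
-/

set_option autoImplicit false
set_option linter.unusedSectionVars false

namespace Cfsg.Agent.MO.Ti

open CoxeterSystem Cfsg.Agent.DL Cfsg.Agent.Nodes.Reps Cfsg.Agent.Nodes.BNOf Cfsg.Agent.Nodes Cfsg.Agent.KZ.Mts
  Cfsg.Agent.ChevalleyStructure.CoxeterGeom Cfsg.Agent.Tits.Roots Matrix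

variable {p : ℕ} [Fact p.Prime] {k : Type} [Field k] [CharP k p] [IsAlgClosed k] {Y : Type} [Group Y] {N : Type}
  [Fintype N] [DecidableEq N] {ρ : Y →* GL N k} {F : MulAut Y} {G : Subgroup Y} (D : Datum p ρ F G)

/-- the coroot of a root -/
noncomputable def hr (r : D.I → ℤ) : kˣ →* Y := D.τ.comp (coch (D.cor r))

theorem hr_apply (r : D.I → ℤ) (c : kˣ) : hr D r c = D.τ (coch (D.cor r) c) := rfl

theorem hr_mem (r : D.I → ℤ) (c : kˣ) : hr D r c ∈ D.T := D.τ_mem _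

theorem hr_sr (i : D.I) (c : kˣ) : hr D (sr i) c = hh D i c := by rw [hr_apply, D.cor_sr, hh_apply]

variable {D}

theorem hr_neg {r : D.I → ℤ} (h : D.Rt r) (c : kˣ) : hr D (-r) c = (hr D r c)⁻¹ := by
  rw [hr_apply, D.cor_neg h, coch_neg, map_inv, hr_apply]

theorem conj_hr {w : D.W} {m : Y} (hm : D.Rp w m) {r : D.I → ℤ} (h : D.Rt r) (c : kˣ) :
    m * hr D r c * m⁻¹ = hr D (D.act w r) c := by
  rw [hr_apply, D.conj_τ hm, mon_coch, ← D.cor_act w h, hr_apply]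

theorem χ_hr {r : D.I → ℤ} (h : D.Rt r) (b : D.I → ℤ) (c : kˣ) :
    D.χ b (hr D r c) = (c ^ Coroot.cpr D.cs D.h b r : kˣ) := by
  rw [hr_apply, D.χ_τ, chr_coch, D.pair_cor h]

theorem F_hr {r : D.I → ℤ} (h : D.Rt r) (c : kˣ) : F (hr D r c) = hr D (D.g r) (c ^ p ^ D.ex r) := by
  rw [hr_apply, D.F_τ, mon_coch, D.Mx_cor h, coch_zsmul, ← Nat.cast_pow, zpow_natCast, hr_apply]

variable (D)

/-- the coordinates of the torus as a covering torus -/
noncomputable def cv0 : Cv D (D.R → kˣ) where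
  π := D.τ
  act := MonoidHom.mk (OneHom.mk (fun w => mon (D.Wm w)) (MonoidHom.ext fun c => by rw [D.Wm_one]; exact mon_one c))
    fun v w => MonoidHom.ext fun c => by
      show mon (D.Wm (v * w)) c = mon (D.Wm v) (mon (D.Wm w) c)
      rw [D.Wm_mul, mon_mul]
  h r := coch (D.cor r)
  Φ := mon D.Mx
  mem := D.τ_mem
  surj t ht := (D.mem_T t).1 ht
  π_act w m hm a := (D.conj_τ hm a).symm
  π_h i c := by rw [D.cor_sr]; rfl
  act_h w r c h := by rw [D.cor_act w h]; exact mon_coch _ _ _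
  h_neg r c h := by rw [D.cor_neg h, coch_neg]
  act_s i a e he := by
    obtain rfl : chr (D.wt (sr i)) a = e := Units.ext ((D.χ_τ _ _).symm.trans he)
    refine D.τ_inj ?_
    show D.τ (mon (D.Wm (D.cs.simple i)) a) = _
    rw [← D.conj_τ (rp_simple D.cs D.nsys i), D.refl, D.cor_sr]
  π_Φ a := (D.F_τ a).symm
  Φ_act w a := by
    show mon D.Mx (mon (D.Wm w) a) = mon (D.Wm (D.Fw w)) (mon D.Mx a)
    rw [← mon_mul, ← mon_mul, D.Mx_Wm]
  Φ_h r c h := by rw [mon_coch, D.Mx_cor h, coch_zsmul, ← Nat.cast_pow, zpow_natCast]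
  Φ_ker a h := by
    obtain rfl : a = 1 := D.τ_inj (h.trans (map_one _).symm)
    exact map_one _

/-- the finite set of the roots -/
noncomputable def roots : Finset (D.I → ℤ) := D.finite_roots.toFinset

variable {D} in
theorem mem_roots {r : D.I → ℤ} : r ∈ roots D ↔ D.Rt r := Set.Finite.mem_toFinset _

/-- the roots which occur in the cocycle -/
def LS (u v : D.W) (r : D.I → ℤ) : Prop := 0 ≤ r ∧ ¬ 0 ≤ D.act u⁻¹ r ∧ 0 ≤ D.act (u * v)⁻¹ r

open Classical in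
/-- the cocycle in the coordinates of the torus -/
noncomputable def ls (u v : D.W) : D.R → kˣ := ∏ r ∈ roots D, if LS D u v r then coch (D.cor r) (-1) else 1

theorem ls_eq (u v : D.W) : ls D u v = (cv0 D).tq 1 u (u * v) := by
  rw [ls, Cv.tq]
  refine Finset.prod_congr rfl fun r _ => ?_
  rw [inv_one, act_one]
  congr

open Classical in
theorem ls_eq_coch (u v : D.W) : ls D u v = coch (∑ r ∈ (roots D).filter (LS D u v), D.cor r) (-1) := by
  rw [ls, ← Finset.prod_filter]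
  funext j
  rw [Finset.prod_apply, coch_apply, Finset.sum_apply, zpow_sum']
  rfl

theorem ls_sq (u v : D.W) : ls D u v * ls D u v = 1 := by rw [ls_eq, Cv.tq_sq]

variable {D}

/-- **the cocycle formula** -/
theorem nw_mul (P : Pin D) (u v : D.W) : P.nw u * P.nw v = D.τ (ls D u v) * P.nw (u * v) := by
  have h := map_mul ((cv0 D).pr P) ((cv0 D).wl u) ((cv0 D).wl v)
  rw [Cv.pr_wl, Cv.pr_wl] at h
  rw [← h, Cv.wl, Cv.mul_wl, one_mul, Cv.pr_apply, ls_eq]
  rfl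

theorem exists_nw (P : Pin D) {w : D.W} {m : Y} (hm : D.Rp w m) : ∃ c, m = D.τ c * P.nw w := by
  obtain ⟨c, hc⟩ := (D.mem_T _).1 (hm.inv.unique (P.rp_nw w).inv)
  exact ⟨c⁻¹⁻¹, by rw [inv_inv, hc]; group⟩

end Cfsg.Agent.MO.Ti
end

-- part: MO/Ti/Pd
section
/-!
# Pinned automorphisms (helper30)

`IsPd P α σ e` : the automorphism `α` of `Y` stabilises `T` and maps `x i a` to `x (σ i) (a ^ p ^ e i)`, `e i : ℤ`.
`PA P` : the group of these automorphisms.  `aw D α`, `gr D α`, `er D α` : the action on the Weyl group, on the roots,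
and the exponents.
-/

set_option autoImplicit false
set_option linter.unusedSectionVars false

namespace Cfsg.Agent.MO.Ti

open CoxeterSystem Cfsg.Agent.DL Cfsg.Agent.Nodes.Reps Cfsg.Agent.Nodes.BNOf Cfsg.Agent.Nodes Cfsg.Agent.KZ.Mts
  Cfsg.Agent.ChevalleyStructure.CoxeterGeom Cfsg.Agent.Tits.Roots Matrix

section Fz

variable (p : ℕ) [Fact p.Prime] (k : Type) [Field k] [CharP k p] [IsAlgClosed k]

/-- the integral powers of the Frobenius map -/
noncomputable def fz (e : ℤ) : RingAut k := (frobeniusEquiv k p : RingAut k) ^ e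

/-- the integral powers of the Frobenius map on the units -/
noncomputable def fu (e : ℤ) : MulAut kˣ := Units.mapEquiv (fz p k e).toMulEquiv

variable {p k}

theorem coe_fu (e : ℤ) (c : kˣ) : (fu p k e c : k) = fz p k e c := rfl

theorem fz_add (e e' : ℤ) (a : k) : fz p k (e + e') a = fz p k e (fz p k e' a) := by rw [fz, _root_.zpow_add]; rfl

theorem fz_zero (a : k) : fz p k 0 a = a := by rw [fz, zpow_zero]; rfl

theorem fz_nat (n : ℕ) (a : k) : fz p k (n : ℤ) a = a ^ p ^ n := by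
  induction n with
  | zero => rw [Nat.cast_zero, fz_zero, pow_zero, pow_one]
  | succ n ih =>
    rw [Nat.cast_succ, add_comm, fz_add, ih, pow_succ, pow_mul, fz, zpow_one]
    rfl

theorem fz_neg (e : ℤ) (a : k) : fz p k (-e) (fz p k e a) = a := by rw [← fz_add, neg_add_cancel, fz_zero]

theorem fu_add (e e' : ℤ) (c : kˣ) : fu p k (e + e') c = fu p k e (fu p k e' c) := Units.ext (fz_add e e' (c : k))

theorem fu_zero (c : kˣ) : fu p k 0 c = c := Units.ext (fz_zero (c : k))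

theorem fu_nat (n : ℕ) (c : kˣ) : fu p k n c = c ^ p ^ n := Units.ext (by rw [coe_fu, fz_nat, Units.val_pow_eq_pow_val])

theorem fu_neg_one (e : ℤ) : fu p k e (-1) = -1 := Units.ext (by
  rw [coe_fu, Units.val_neg, Units.val_one, map_neg, map_one])

theorem fu_comm (e e' : ℤ) (c : kˣ) : fu p k e (fu p k e' c) = fu p k e' (fu p k e c) := by
  rw [← fu_add, add_comm, fu_add]

theorem eq_zero_of_fu {e : ℤ} (h : ∀ c : kˣ, fu p k e c = c) : e = 0 := by
  have key : ∀ n : ℕ, (∀ c : kˣ, fu p k n c = c) → n = 0 := fun n hn => by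
    have h1 : ((p : ℤ) ^ n - 1) = 0 := eq_zero_of_zpow (k := k) fun a => by
      rw [_root_.zpow_sub, zpow_one, ← Nat.cast_pow, zpow_natCast, ← fu_nat, hn, mul_inv_cancel]
    have h2 : p ^ n = 1 := by exact_mod_cast sub_eq_zero.1 h1
    exact (Nat.pow_eq_one.1 h2).resolve_left (Fact.out : p.Prime).ne_one
  obtain ⟨n, rfl | rfl⟩ := Int.eq_nat_or_neg e
  · rw [key n h, Nat.cast_zero]
  · rw [key n fun c => by rw [← h (fu p k n c), ← fu_add, neg_add_cancel, fu_zero], Nat.cast_zero, neg_zero]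

theorem eq_of_fu_sq {e e' : ℤ} (h : ∀ c : kˣ, fu p k e c ^ 2 = fu p k e' c ^ 2) : e = e' := by
  refine sub_eq_zero.1 (eq_zero_of_fu (p := p) (k := k) fun c => ?_)
  obtain ⟨b, rfl⟩ := exists_zpow_eq (n := 2) two_ne_zero c
  have h1 := h (fu p k (-e') b)
  rw [← fu_add, ← fu_add, add_neg_cancel, fu_zero, ← sub_eq_add_neg] at h1
  rw [map_zpow, zpow_two, zpow_two, ← pow_two, ← pow_two, h1]

end Fz

theorem length_map {I W : Type} [Group W] {M : CoxeterMatrix I} (cs : CoxeterSystem M W) (a : W →* W) (σ : I → I)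
    (h : ∀ i, a (cs.simple i) = cs.simple (σ i)) (w : W) : cs.length (a w) ≤ cs.length w := by
  obtain ⟨ω, hω, rfl⟩ := cs.exists_isReduced w
  have h1 : a (cs.wordProd ω) = cs.wordProd (ω.map σ) := by
    clear hω
    induction ω with
    | nil => exact map_one a
    | cons i ω ih => rw [List.map_cons, wordProd_cons, wordProd_cons, map_mul, h, ih]
  rw [h1, hω.eq, ← List.length_map σ]
  exact cs.length_wordProd_le _

variable {p : ℕ} [Fact p.Prime] {k : Type} [Field k] [CharP k p] [IsAlgClosed k] {Y : Type} [Group Y] {N : Type}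
  [Fintype N] [DecidableEq N] {ρ : Y →* GL N k} {F : MulAut Y} {G : Subgroup Y} {D : Datum p ρ F G}

/-- a pinned automorphism -/
structure IsPd (P : Pin D) (α : MulAut Y) (σ : Equiv.Perm D.I) (e : D.I → ℤ) : Prop where
  memT : ∀ y, α y ∈ D.T ↔ y ∈ D.T
  x : ∀ i a, α (P.x i a) = P.x (σ i) (fz p k (e i) a)
  n : ∀ i, α (P.n i) = P.n (σ i)

variable {P : Pin D} {α β : MulAut Y} {σ σ' : Equiv.Perm D.I} {e e' : D.I → ℤ}

theorem IsPd.one : IsPd P 1 1 0 := ⟨fun _ => Iff.rfl, fun i a => by rw [Pi.zero_apply, fz_zero]; rfl, fun _ => rfl⟩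

theorem IsPd.mul (h : IsPd P α σ e) (h' : IsPd P β σ' e') : IsPd P (α * β) (σ * σ') fun i => e (σ' i) + e' i :=
  ⟨fun y => (h.memT _).trans (h'.memT y), fun i a => by rw [MulAut.mul_apply, h'.x, h.x, fz_add]; rfl,
    fun i => by rw [MulAut.mul_apply, h'.n, h.n]; rfl⟩

theorem IsPd.inv (h : IsPd P α σ e) : IsPd P α⁻¹ σ⁻¹ fun i => -e (σ⁻¹ i) := by
  refine ⟨fun y => ?_, fun i a => α.injective ?_, fun i => α.injective ?_⟩
  · rw [← h.memT, MulAut.apply_inv_self]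
  · rw [MulAut.apply_inv_self, h.x, ← fz_add, add_neg_cancel, fz_zero, Equiv.Perm.coe_inv, Equiv.apply_symm_apply]
  · rw [MulAut.apply_inv_self, h.n, Equiv.Perm.coe_inv, Equiv.apply_symm_apply]

variable (P) in
/-- the group of the pinned automorphisms -/
def PA : Subgroup (MulAut Y) where
  carrier := {α | ∃ σ e, IsPd P α σ e}
  one_mem' := ⟨_, _, IsPd.one⟩
  mul_mem' := fun ⟨_, _, h⟩ ⟨_, _, h'⟩ => ⟨_, _, h.mul h'⟩
  inv_mem' := fun ⟨_, _, h⟩ => ⟨_, _, h.inv⟩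

theorem IsPd.mem (h : IsPd P α σ e) : α ∈ PA P := ⟨σ, e, h⟩

/-- a stable pinning: `F` is pinned -/
theorem isPd_F (hq : D.QS) (h : P.St) : IsPd P F D.σ fun i => D.ex (sr i) :=
  ⟨D.F_mem_T_iff, fun i a => by rw [h i a, fz_nat], P.F_n hq h⟩

theorem F_mem_PA (hq : D.QS) (h : P.St) : F ∈ PA P := (isPd_F hq h).mem

theorem IsPd.hh (h : IsPd P α σ e) (i : D.I) (c : kˣ) : α (hh D i c) = hh D (σ i) (fu p k (e i) c) := by
  have h1 := congrArg α ((P.pn i).rel c⁻¹)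
  have h2 := (P.pn (σ i)).rel (fu p k (e i) c)⁻¹
  have h3 : ∀ a, α (D.x (sr i) (P.u i * a)) = D.x (sr (σ i)) (P.u (σ i) * fz p k (e i) a) := h.x i
  rw [map_mul, map_mul, map_mul, map_mul, map_mul, map_inv α, h3, h3, h.n, inv_inv, map_neg, ← coe_fu, ← coe_fu,
    map_inv] at h1
  rw [inv_inv, h1] at h2
  exact mul_right_cancel (mul_left_cancel (mul_right_cancel h2))

theorem IsPd.mem_NN (h : IsPd P α σ e) {m : Y} (hm : m ∈ D.NN) : α m ∈ D.NN := by
  obtain ⟨w, hw⟩ := hm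
  obtain ⟨c, rfl⟩ := exists_nw P hw
  rw [map_mul]
  refine mul_mem (D.T_le_NN ((h.memT _).2 (D.τ_mem c))) ?_
  clear hw
  induction w using ind_up D.cs with
  | h1 => rw [P.nw_one, map_one]; exact one_mem _
  | h w i h1 ih => rw [P.nw_up h1, map_mul, h.n]; exact mul_mem ih ⟨_, P.rp _⟩

variable (D) in
/-- the action on the Weyl group -/
noncomputable def aw (α : MulAut Y) (w : D.W) : D.W := D.pr (α (D.exists_rp w).choose)

open Classical in
variable (D) in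
/-- the action on the roots -/
noncomputable def gr (α : MulAut Y) (r : D.I → ℤ) : D.I → ℤ :=
  if h : ∃ r', D.Rt r' ∧ ∀ y, α y ∈ D.X r' ↔ y ∈ D.X r then h.choose else r

open Classical in
variable (D) in
/-- the exponent at a root -/
noncomputable def er (α : MulAut Y) (r : D.I → ℤ) : ℤ :=
  if h : ∃ n, ∀ c, α (hr D r c) = hr D (gr D α r) (fu p k n c) then h.choose else 0

theorem gr_eq {r r' : D.I → ℤ} (h' : D.Rt r') (h : ∀ y, α y ∈ D.X r' ↔ y ∈ D.X r) : gr D α r = r' := by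
  have h1 : ∃ r', D.Rt r' ∧ ∀ y, α y ∈ D.X r' ↔ y ∈ D.X r := ⟨r', h', h⟩
  rw [gr, dif_pos h1]
  refine D.X_injective h1.choose_spec.1 h' (Subgroup.ext fun y => ?_)
  obtain ⟨y, rfl⟩ := α.surjective y
  rw [h, h1.choose_spec.2]

theorem er_eq {r : D.I → ℤ} (h' : D.Rt (gr D α r)) {n : ℤ} (h : ∀ c, α (hr D r c) = hr D (gr D α r) (fu p k n c)) :
    er D α r = n := by
  have h1 : ∃ n, ∀ c, α (hr D r c) = hr D (gr D α r) (fu p k n c) := ⟨n, h⟩
  rw [er, dif_pos h1]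
  refine eq_of_fu_sq (p := p) (k := k) fun c => Units.ext ?_
  have h2 := congrArg (D.χ (gr D α r)) ((h1.choose_spec c).symm.trans (h c))
  rwa [χ_hr h', χ_hr h', Coroot.cpr_self _ _ h', zpow_two, zpow_two, ← pow_two, ← pow_two] at h2

namespace Pd

section mem

variable (h : α ∈ PA P)
include h

theorem memT (y : Y) : α y ∈ D.T ↔ y ∈ D.T := let ⟨_, _, h⟩ := h; h.memT y

theorem mem_NN (m : Y) : α m ∈ D.NN ↔ m ∈ D.NN :=
  let ⟨_, _, h⟩ := h
  ⟨fun h1 => by simpa using h.inv.mem_NN h1, h.mem_NN⟩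

theorem rp {w : D.W} {m : Y} (hm : D.Rp w m) : D.Rp (aw D α w) (α m) := by
  have h0 := (D.exists_rp w).choose_spec.1
  have h1 := (D.rp_pr ((mem_NN h _).2 ⟨w, h0⟩)).mul_mem_right ((memT h _).2 (h0.unique hm))
  rwa [← map_mul, mul_inv_cancel_left] at h1

theorem pr {m : Y} (hm : m ∈ D.NN) : D.pr (α m) = aw D α (D.pr m) := (rp h (D.rp_pr hm)).pr_eq

theorem aw_mul (v w : D.W) : aw D α (v * w) = aw D α v * aw D α w :=
  D.rp_unique (rp h ((P.rp_nw v).mul (P.rp_nw w))) (by rw [map_mul]; exact (rp h (P.rp_nw v)).mul (rp h (P.rp_nw w)))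

theorem aw_one : aw D α 1 = 1 := D.rp_unique (rp h rp_one) (by rw [map_one]; exact rp_one)

theorem aw_inv (w : D.W) : aw D α w⁻¹ = (aw D α w)⁻¹ :=
  eq_inv_of_mul_eq_one_left (by rw [← aw_mul h, inv_mul_cancel, aw_one h])

theorem mul_aw (h' : β ∈ PA P) (w : D.W) : aw D (α * β) w = aw D α (aw D β w) :=
  D.rp_unique (rp (mul_mem h h') (P.rp_nw w)) (rp h (rp h' (P.rp_nw w)))

end mem

theorem one_aw (P : Pin D) (w : D.W) : aw D 1 w = w := D.rp_unique (rp (one_mem (PA P)) (P.rp_nw w)) (P.rp_nw w)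

theorem inv_aw (h : α ∈ PA P) (w : D.W) : aw D α⁻¹ (aw D α w) = w := by
  rw [← mul_aw (inv_mem h) h, inv_mul_cancel, one_aw P]

theorem aw_inv_aw (h : α ∈ PA P) (w : D.W) : aw D α (aw D α⁻¹ w) = w := by
  rw [← mul_aw h (inv_mem h), mul_inv_cancel, one_aw P]

end Pd

variable (P) in
/-- the action on the Weyl group as a homomorphism -/
noncomputable def awH : PA P →* MulAut D.W where
  toFun α :=
    { toFun := aw D α
      invFun := aw D (α : MulAut Y)⁻¹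
      left_inv := Pd.inv_aw α.2
      right_inv := Pd.aw_inv_aw α.2
      map_mul' := Pd.aw_mul α.2 }
  map_one' := MulEquiv.ext (Pd.one_aw P)
  map_mul' α β := MulEquiv.ext (Pd.mul_aw α.2 β.2)

theorem awH_apply (α : PA P) (w : D.W) : awH P α w = aw D α w := rfl

theorem IsPd.aw_simple (h : IsPd P α σ e) (i : D.I) : aw D α (D.cs.simple i) = D.cs.simple (σ i) :=
  D.rp_unique (Pd.rp h.mem (P.rp i)) (h.n i ▸ P.rp _)

namespace Pd

theorem length_aw (h : α ∈ PA P) (w : D.W) : D.cs.length (aw D α w) = D.cs.length w := by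
  have key : ∀ {α : MulAut Y} (h : α ∈ PA P) (w : D.W), D.cs.length (aw D α w) ≤ D.cs.length w := fun h w => by
    obtain ⟨σ, e, h'⟩ := id h
    exact length_map D.cs (awH P ⟨_, h⟩).toMonoidHom σ h'.aw_simple w
  refine le_antisymm (key h w) ?_
  conv_lhs => rw [← inv_aw h w]
  exact key (inv_mem h) _

/-- **equivariance of the canonical representatives** -/
theorem nw (h : α ∈ PA P) (w : D.W) : α (P.nw w) = P.nw (aw D α w) := by
  obtain ⟨σ, e, h'⟩ := id h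
  induction w using ind_up D.cs with
  | h1 => rw [aw_one h, P.nw_one, map_one]
  | h w i h1 ih =>
    rw [P.nw_up h1, map_mul, ih, h'.n, aw_mul h, h'.aw_simple, P.nw_up]
    rwa [← h'.aw_simple, ← aw_mul h, length_aw h, length_aw h]

end Pd

theorem IsPd.mem_X (h : IsPd P α σ e) (w : D.W) (i : D.I) (y : Y) :
    α y ∈ D.X (D.act (aw D α w) (sr (σ i))) ↔ y ∈ D.X (D.act w (sr i)) := by
  rw [← D.conj_rp (P.rp_nw _) (rt D _), ← D.conj_rp (P.rp_nw _) (rt D _), mem_cj, mem_cj, ← Pd.nw h.mem, ← map_inv,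
    ← map_mul, ← map_mul]
  generalize (P.nw w)⁻¹ * y * P.nw w = z
  refine ⟨fun h1 => ?_, fun h1 => ?_⟩
  · obtain ⟨a, ha⟩ := P.exists_x h1
    rw [← fz_neg (p := p) (-e i) a, neg_neg, ← h.x] at ha
    exact α.injective ha ▸ P.x_mem _ _
  · obtain ⟨a, rfl⟩ := P.exists_x h1
    exact h.x i a ▸ P.x_mem _ _

theorem IsPd.gr_act (h : IsPd P α σ e) (w : D.W) (i : D.I) :
    gr D α (D.act w (sr i)) = D.act (aw D α w) (sr (σ i)) := gr_eq ((rt D _).act _) (h.mem_X w i)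

theorem IsPd.gr_sr (h : IsPd P α σ e) (i : D.I) : gr D α (sr i) = sr (σ i) := by
  have := h.gr_act 1 i
  rwa [Pd.aw_one h.mem, act_one, act_one] at this

theorem IsPd.hr_act (h : IsPd P α σ e) (w : D.W) (i : D.I) (c : kˣ) :
    α (hr D (D.act w (sr i)) c) = hr D (gr D α (D.act w (sr i))) (fu p k (e i) c) := by
  rw [h.gr_act, ← conj_hr (P.rp_nw _) (rt D _), ← conj_hr (P.rp_nw _) (rt D _), map_mul, map_mul, map_inv,
    Pd.nw h.mem, hr_sr, hr_sr, h.hh]

theorem IsPd.er_act (h : IsPd P α σ e) (w : D.W) (i : D.I) : er D α (D.act w (sr i)) = e i :=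
  er_eq (h.gr_act w i ▸ (rt D _).act _) (h.hr_act w i)

theorem IsPd.er_sr (h : IsPd P α σ e) (i : D.I) : er D α (sr i) = e i := by
  have := h.er_act 1 i
  rwa [act_one] at this

namespace Pd

variable (h : α ∈ PA P) {r : D.I → ℤ} (hr' : D.Rt r)
include h hr'

theorem gr_root : D.Rt (gr D α r) := by
  obtain ⟨σ, e, h⟩ := h
  obtain ⟨w, i, rfl⟩ := hr'
  exact h.gr_act w i ▸ (rt D _).act _

theorem mem_X (y : Y) : α y ∈ D.X (gr D α r) ↔ y ∈ D.X r := by
  obtain ⟨σ, e, h⟩ := h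
  obtain ⟨w, i, rfl⟩ := hr'
  exact h.gr_act w i ▸ h.mem_X w i y

theorem gr_act (w : D.W) : gr D α (D.act w r) = D.act (aw D α w) (gr D α r) := by
  obtain ⟨σ, e, h'⟩ := id h
  obtain ⟨v, i, rfl⟩ := hr'
  rw [← Datum.act, ← act_mul, h'.gr_act, h'.gr_act, aw_mul h, act_mul]

theorem er_act (w : D.W) : er D α (D.act w r) = er D α r := by
  obtain ⟨σ, e, h'⟩ := id h
  obtain ⟨v, i, rfl⟩ := hr'
  rw [← Datum.act, ← act_mul, h'.er_act, h'.er_act]

/-- the action on the coroots -/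
theorem map_hr (c : kˣ) : α (hr D r c) = hr D (gr D α r) (fu p k (er D α r) c) := by
  obtain ⟨σ, e, h'⟩ := id h
  obtain ⟨v, i, rfl⟩ := hr'
  rw [← Datum.act, h'.er_act, h'.hr_act]

theorem gr_neg : gr D α (-r) = -gr D α r := by
  obtain ⟨σ, e, h'⟩ := id h
  obtain ⟨v, i, rfl⟩ := hr'
  rw [← Datum.act, ← act_neg, ← act_simple, ← act_mul, h'.gr_act, h'.gr_act, aw_mul h, h'.aw_simple, act_mul,
    act_simple, act_neg]

theorem er_neg : er D α (-r) = er D α r := by rw [← D.act_rf_self hr', er_act h hr']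

theorem gr_nonneg : 0 ≤ gr D α r ↔ 0 ≤ r := by
  obtain ⟨σ, e, h'⟩ := id h
  obtain ⟨v, i, rfl⟩ := hr'
  rw [← Datum.act, h'.gr_act, ← up_iff, ← up_iff, ← h'.aw_simple, ← aw_mul h, length_aw h, length_aw h]

theorem aw_rf : aw D α (D.rf r) = D.rf (gr D α r) := by
  obtain ⟨σ, e, h'⟩ := id h
  obtain ⟨v, i, rfl⟩ := hr'
  rw [← Datum.act, h'.gr_act, D.rf_act, D.rf_act, aw_mul h, aw_mul h, aw_inv h, h'.aw_simple]

theorem mul_gr (h' : β ∈ PA P) : gr D (β * α) r = gr D β (gr D α r) :=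
  gr_eq (gr_root h' (gr_root h hr')) fun y => by rw [MulAut.mul_apply, mem_X h' (gr_root h hr'), mem_X h hr']

theorem mul_er (h' : β ∈ PA P) : er D (β * α) r = er D β (gr D α r) + er D α r :=
  er_eq (gr_root (mul_mem h' h) hr') fun c => by
    rw [MulAut.mul_apply, map_hr h hr', map_hr h' (gr_root h hr'), mul_gr h hr' h', fu_add]

omit h in
theorem one_gr : gr D 1 r = r := gr_eq hr' fun _ => Iff.rfl

omit h in
theorem one_er : er D 1 r = 0 := er_eq (by rwa [one_gr hr']) fun c => by rw [one_gr hr', fu_zero]; rfl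

theorem inv_gr : gr D α⁻¹ (gr D α r) = r := by rw [← mul_gr h hr' (inv_mem h), inv_mul_cancel, one_gr hr']

theorem gr_inv_gr : gr D α (gr D α⁻¹ r) = r := by rw [← mul_gr (inv_mem h) hr' h, mul_inv_cancel, one_gr hr']

omit hr' in
theorem mem_S {A B : Set (D.I → ℤ)} (hA : ∀ a ∈ A, D.Rt a) (hB : ∀ a ∈ A, gr D α a ∈ B) {y : Y} (hy : y ∈ D.S A) :
    α y ∈ D.S B :=
  (RGD.Sup_le (K := (D.S B).comap α.toMonoidHom) fun a ha _ hz =>
    RGD.le_Sup (X := D.X) (hB a ha) ((mem_X h (hA a ha) _).2 hz)) hy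

omit hr' in
theorem memU (y : Y) : α y ∈ D.U ↔ y ∈ D.U := by
  have key : ∀ {α : MulAut Y} (h : α ∈ PA P) {y : Y}, y ∈ D.U → α y ∈ D.U := fun h _ hy =>
    mem_S (B := RGD.Pos D.cs D.h) h (fun _ ha => ha.1)
      (fun _ ha => And.intro (gr_root h ha.1) ((gr_nonneg h ha.1).2 ha.2)) hy
  exact ⟨fun h1 => by simpa using key (inv_mem h) h1, key h⟩

omit hr' in
theorem memG (y : Y) : α y ∈ G ↔ y ∈ G := by
  have key : ∀ {α : MulAut Y} (h : α ∈ PA P) {y : Y}, y ∈ G → α y ∈ G := fun h _ hy => by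
    obtain ⟨w, u, hu, m, hm, v, hv, rfl⟩ := D.exists_normal_form hy
    rw [map_mul, map_mul]
    exact mul_mem (mul_mem (D.U_le_G ((memU h _).2 hu)) (rp h hm).mem_G) (D.U_le_G ((memU h _).2 (D.NW_le_U w hv)))
  exact ⟨fun h1 => by simpa using key (inv_mem h) h1, key h⟩

end Pd

theorem aw_F (hq : D.QS) (h : P.St) (w : D.W) : aw D F w = D.Fw w :=
  D.rp_unique (Pd.rp (F_mem_PA hq h) (P.rp_nw w)) (Datum.Rp.mapF (P.rp_nw w))

theorem gr_F {r : D.I → ℤ} (hr' : D.Rt r) : gr D F r = D.g r := gr_eq (D.g_root r hr') (D.F_mem_X_iff hr')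

theorem er_F {r : D.I → ℤ} (hr' : D.Rt r) : er D F r = D.ex r :=
  er_eq (by rw [gr_F hr']; exact D.g_root r hr') fun c => by rw [gr_F hr', F_hr hr', fu_nat]

end Cfsg.Agent.MO.Ti
end

-- part: MO/Ti/Sec
section
/-!
# The extended Weyl group and its canonical section (helper30)

`Pe P E` : a group `E` acting on `Y` by pinned automorphisms.  `Q.Wt = W ⋊ E`, `Q.A = Y ⋊ E`; `Q.ra x` : the action on
the roots, `Q.ac x` : the action on the coordinates of the torus, `Q.sec x` : the canonical representative.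
-/

set_option autoImplicit false
set_option linter.unusedSectionVars false

namespace Cfsg.Agent.MO.Ti

open CoxeterSystem Cfsg.Agent.DL Cfsg.Agent.Nodes.Reps Cfsg.Agent.Nodes.BNOf Cfsg.Agent.Nodes Cfsg.Agent.KZ.Mts
  Cfsg.Agent.ChevalleyStructure.CoxeterGeom Cfsg.Agent.Tits.Roots Matrix SemidirectProduct

variable {p : ℕ} [Fact p.Prime] {k : Type} [Field k] [CharP k p] [IsAlgClosed k] {Y : Type} [Group Y] {N : Type}
  [Fintype N] [DecidableEq N] {ρ : Y →* GL N k} {F : MulAut Y} {G : Subgroup Y} {D : Datum p ρ F G}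

/-- a group of pinned automorphisms -/
structure Pe (P : Pin D) (E : Type) [Group E] where
  φ : E →* MulAut Y
  mem : ∀ e, φ e ∈ PA P

/-- a subgroup of the group of pinned automorphisms -/
@[reducible] def Pe.ofLe {P : Pin D} {E : Subgroup (MulAut Y)} (h : E ≤ PA P) : Pe P E := ⟨E.subtype, fun e => h e.2⟩

namespace Pe

variable {P : Pin D} {E : Type} [Group E] (Q : Pe P E)

/-- the action on the Weyl group -/
noncomputable def aE : E →* MulAut D.W := (awH P).comp (Q.φ.codRestrict (PA P) Q.mem)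

theorem aE_apply (e : E) (w : D.W) : Q.aE e w = aw D (Q.φ e) w := rfl

/-- the extended Weyl group -/
abbrev Wt : Type := D.W ⋊[Q.aE] E

/-- the ambient group -/
abbrev A : Type := Y ⋊[Q.φ] E

/-- the action on the roots -/
noncomputable def ra (x : Q.Wt) (r : D.I → ℤ) : D.I → ℤ := D.act x.left (gr D (Q.φ x.right) r)

/-- the exponents -/
noncomputable def ex (x : Q.Wt) (r : D.I → ℤ) : ℤ := er D (Q.φ x.right) r

/-- the canonical representative -/
noncomputable def sec (x : Q.Wt) : Q.A := ⟨P.nw x.left, x.right⟩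

/-- conjugation in the extended Weyl group -/
noncomputable def cw (x : Q.Wt) : D.W →* D.W := (MulAut.conj x.left).toMonoidHom.comp (Q.aE x.right).toMonoidHom

/-- the automorphism of `Y` which is induced by an element of `Y ⋊ E` -/
def au : Q.A →* MulAut Y := SemidirectProduct.lift MulAut.conj Q.φ fun e => MonoidHom.ext fun y => MulEquiv.ext fun z => by
  simp only [MulAut.conj_apply, _root_.MulEquiv.toMonoidHom_eq_coe, _root_.MonoidHom.coe_comp, _root_.MonoidHom.coe_coe, _root_.Function.comp_apply, _root_.MulAut.mul_apply, _root_.MulAut.inv_apply, _root_.map_mul, _root_.MulEquiv.apply_symm_apply, _root_.map_inv]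

variable {Q}

theorem au_apply (a : Q.A) (y : Y) : Q.au a y = a.left * Q.φ a.right y * a.left⁻¹ := rfl

theorem conj_inl (a : Q.A) (y : Y) : a * inl y * a⁻¹ = inl (Q.au a y) := by
  rw [mul_inv_eq_iff_eq_mul]
  refine SemidirectProduct.ext ?_ ?_
  · simp only [au_apply, _root_.SemidirectProduct.mul_left, _root_.SemidirectProduct.left_inl, _root_.map_mul, _root_.map_inv, _root_.SemidirectProduct.right_inl, _root_.map_one, _root_.MulAut.one_apply, _root_.SemidirectProduct.mul_right, _root_.mul_one, _root_.SemidirectProduct.inv_left, _root_.inv_one, _root_.SemidirectProduct.inv_right, _root_.inv_mul_cancel_right]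
  · simp

theorem au_inl (y z : Y) : Q.au (inl y) z = y * z * y⁻¹ := by simp only [au_apply, _root_.SemidirectProduct.left_inl, _root_.SemidirectProduct.right_inl, _root_.map_one, _root_.MulAut.one_apply]

theorem au_inr (e : E) (z : Y) : Q.au (inr e) z = Q.φ e z := by simp [au_apply]

theorem au_sec (x : Q.Wt) (y : Y) : Q.au (Q.sec x) y = P.nw x.left * Q.φ x.right y * (P.nw x.left)⁻¹ := rfl

theorem sec_eq (x : Q.Wt) : Q.sec x = inl (P.nw x.left) * inr x.right := (inl_left_mul_inr_right _).symm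

theorem sec_inl (w : D.W) : Q.sec (inl w) = inl (P.nw w) := rfl

theorem sec_inr (e : E) : Q.sec (inr e) = inr e := SemidirectProduct.ext P.nw_one rfl

theorem sec_one : Q.sec 1 = 1 := SemidirectProduct.ext P.nw_one rfl

theorem cw_apply (x : Q.Wt) (w : D.W) : Q.cw x w = x.left * aw D (Q.φ x.right) w * x.left⁻¹ := rfl

theorem conj_inl_W (x : Q.Wt) (w : D.W) : x * inl w * x⁻¹ = inl (Q.cw x w) := by
  rw [mul_inv_eq_iff_eq_mul]
  refine SemidirectProduct.ext ?_ ?_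
  · simp only [cw_apply, aE_apply, _root_.SemidirectProduct.mul_left, _root_.SemidirectProduct.left_inl, _root_.map_mul, _root_.map_inv, _root_.SemidirectProduct.right_inl, _root_.map_one, _root_.MulAut.one_apply, _root_.SemidirectProduct.mul_right, _root_.mul_one, _root_.SemidirectProduct.inv_left, _root_.inv_one, _root_.SemidirectProduct.inv_right, _root_.inv_mul_cancel_right]
  · simp

variable {r : D.I → ℤ}

theorem ra_root (x : Q.Wt) (h : D.Rt r) : D.Rt (Q.ra x r) := (Pd.gr_root (Q.mem _) h).act _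

theorem ra_inl (w : D.W) (h : D.Rt r) : Q.ra (inl w) r = D.act w r := by
  rw [ra, right_inl, map_one, Pd.one_gr h, left_inl]

theorem ra_inr (e : E) (r : D.I → ℤ) : Q.ra (inr e) r = gr D (Q.φ e) r := act_one _

theorem ra_one (h : D.Rt r) : Q.ra 1 r = r := (ra_inl 1 h).trans (act_one r)

theorem ra_mul (x y : Q.Wt) (h : D.Rt r) : Q.ra (x * y) r = Q.ra x (Q.ra y r) := by
  rw [ra, ra, ra, mul_left, mul_right, map_mul, Pd.mul_gr (Q.mem _) h (Q.mem _), act_mul,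
    Pd.gr_act (Q.mem _) (Pd.gr_root (Q.mem _) h), aE_apply]

theorem ra_inv (x : Q.Wt) (h : D.Rt r) : Q.ra x⁻¹ (Q.ra x r) = r := by rw [← ra_mul _ _ h, inv_mul_cancel, ra_one h]

theorem ra_inv' (x : Q.Wt) (h : D.Rt r) : Q.ra x (Q.ra x⁻¹ r) = r := by rw [← ra_mul _ _ h, mul_inv_cancel, ra_one h]

theorem ra_neg (x : Q.Wt) (h : D.Rt r) : Q.ra x (-r) = -Q.ra x r := by rw [ra, Pd.gr_neg (Q.mem _) h, act_neg, ra]

theorem ra_act (x : Q.Wt) (w : D.W) (h : D.Rt r) : Q.ra x (D.act w r) = D.act (Q.cw x w) (Q.ra x r) := by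
  rw [← ra_inl (Q := Q) w h, ← ra_mul _ _ h, ← ra_inl (Q := Q) _ (ra_root x h), ← ra_mul _ _ h, ← conj_inl_W,
    inv_mul_cancel_right]

theorem cw_rf (x : Q.Wt) (h : D.Rt r) : Q.cw x (D.rf r) = D.rf (Q.ra x r) := by
  rw [cw_apply, Pd.aw_rf (Q.mem _) h, ra, D.rf_act' _ (Pd.gr_root (Q.mem _) h)]

theorem ra_inv_nonneg (x : Q.Wt) (h : D.Rt r) : 0 ≤ Q.ra x⁻¹ r ↔ 0 ≤ D.act x.left⁻¹ r := by
  have h1 : x⁻¹ = inr x.right⁻¹ * inl x.left⁻¹ := by
    rw [map_inv, map_inv, ← _root_.mul_inv_rev, inl_left_mul_inr_right]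
  rw [h1, ra_mul _ _ h, ra_inl _ h, ra_inr, Pd.gr_nonneg (Q.mem _) (h.act _)]

theorem ex_inl (w : D.W) (h : D.Rt r) : Q.ex (inl w) r = 0 := by rw [ex, right_inl, map_one, Pd.one_er h]

theorem ex_mul (x y : Q.Wt) (h : D.Rt r) : Q.ex (x * y) r = Q.ex x (Q.ra y r) + Q.ex y r := by
  rw [ex, ex, ex, mul_right, map_mul, Pd.mul_er (Q.mem _) h (Q.mem _), ra,
    Pd.er_act (Q.mem _) (Pd.gr_root (Q.mem _) h)]

theorem ex_neg (x : Q.Wt) (h : D.Rt r) : Q.ex x (-r) = Q.ex x r := Pd.er_neg (Q.mem _) h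

theorem ex_act (x : Q.Wt) (w : D.W) (h : D.Rt r) : Q.ex x (D.act w r) = Q.ex x r := Pd.er_act (Q.mem _) h w

/-! ### the action on `Y` -/

theorem au_mem_T {a : Q.A} (ha : a.left ∈ D.NN) (y : Y) : Q.au a y ∈ D.T ↔ y ∈ D.T := by
  rw [au_apply, ← Pd.memT (Q.mem a.right) y]
  exact ⟨fun h => by simpa [mul_assoc] using D.conj_mem_T (inv_mem ha) h, D.conj_mem_T ha⟩

theorem au_mem_G {a : Q.A} (ha : a.left ∈ G) (y : Y) : Q.au a y ∈ G ↔ y ∈ G := by
  rw [au_apply, mul_mem_cancel_right (inv_mem ha), mul_mem_cancel_left ha, Pd.memG (Q.mem _)]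

theorem au_mem_X {a : Q.A} {w : D.W} (ha : D.Rp w a.left) (h : D.Rt r) (y : Y) :
    Q.au a y ∈ D.X (Q.ra ⟨w, a.right⟩ r) ↔ y ∈ D.X r := by
  rw [au_apply, ra, ← D.conj_rp ha (Pd.gr_root (Q.mem _) h), conj_mem_cj, Pd.mem_X (Q.mem _) h]

theorem au_rp {a : Q.A} {w v : D.W} {m : Y} (ha : D.Rp w a.left) (hm : D.Rp v m) :
    D.Rp (Q.cw ⟨w, a.right⟩ v) (Q.au a m) := (ha.mul (Pd.rp (Q.mem _) hm)).mul ha.inv

theorem au_hr {a : Q.A} {w : D.W} (ha : D.Rp w a.left) (h : D.Rt r) (c : kˣ) :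
    Q.au a (hr D r c) = hr D (Q.ra ⟨w, a.right⟩ r) (fu p k (Q.ex ⟨w, a.right⟩ r) c) := by
  rw [au_apply, Pd.map_hr (Q.mem _) h, conj_hr ha (Pd.gr_root (Q.mem _) h)]
  rfl

/-- **the canonical representatives respect the pinning** -/
theorem sec_x (x : Q.Wt) {i j : D.I} (h : Q.ra x (sr j) = sr i) (a : k) :
    Q.au (Q.sec x) (P.x j a) = P.x i (fz p k (Q.ex x (sr j)) a) := by
  obtain ⟨σ, e, h'⟩ := Q.mem x.right
  rw [ra, h'.gr_sr] at h
  rw [au_sec, h'.x, P.nw_x h, ex, h'.er_sr]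

theorem sec_n (x : Q.Wt) {i j : D.I} (h : Q.ra x (sr j) = sr i) : Q.au (Q.sec x) (P.n j) = P.n i := by
  obtain ⟨σ, e, h'⟩ := Q.mem x.right
  rw [ra, h'.gr_sr] at h
  rw [au_sec, h'.n, P.nw_n h, mul_inv_cancel_right]

variable (Q) in
/-- the action on the coordinates of the torus -/
noncomputable def ac (x : Q.Wt) : (D.R → kˣ) →* (D.R → kˣ) :=
  MonoidHom.mk' (fun c => D.crd (Q.au (Q.sec x) (D.τ c))) fun a b => by
    have h := fun c => (au_mem_T (a := Q.sec x) ⟨_, P.rp_nw _⟩ _).2 (D.τ_mem c)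
    rw [map_mul, map_mul, D.crd_mul (h a) (h b)]

theorem τ_ac (x : Q.Wt) (c : D.R → kˣ) : D.τ (Q.ac x c) = Q.au (Q.sec x) (D.τ c) :=
  D.τ_crd ((au_mem_T (a := Q.sec x) ⟨_, P.rp_nw _⟩ _).2 (D.τ_mem c))

theorem au_τ {a : Q.A} {w : D.W} (ha : D.Rp w a.left) (c : D.R → kˣ) :
    Q.au a (D.τ c) = D.τ (Q.ac ⟨w, a.right⟩ c) := by
  obtain ⟨b, hb⟩ := (D.mem_T _).1 ((Pd.memT (Q.mem a.right) _).2 (D.τ_mem c))
  rw [τ_ac, au_sec, au_apply, ← hb, D.conj_τ ha, D.conj_τ (P.rp_nw _)]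

theorem conj_τ (x : Q.Wt) (c : D.R → kˣ) : Q.sec x * inl (D.τ c) * (Q.sec x)⁻¹ = inl (D.τ (Q.ac x c)) := by
  rw [conj_inl, τ_ac]

theorem ac_coch (x : Q.Wt) (h : D.Rt r) (c : kˣ) :
    Q.ac x (coch (D.cor r) c) = coch (D.cor (Q.ra x r)) (fu p k (Q.ex x r) c) :=
  D.τ_inj ((τ_ac _ _).trans (au_hr (a := Q.sec x) (P.rp_nw _) h c))

theorem ls_iff (x y : Q.Wt) (h : D.Rt r) :
    LS D x.left (Q.aE x.right y.left) r ↔ 0 ≤ r ∧ ¬ 0 ≤ Q.ra x⁻¹ r ∧ 0 ≤ Q.ra (x * y)⁻¹ r := by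
  rw [ra_inv_nonneg _ h, ra_inv_nonneg _ h]
  rfl

/-- **the cocycle formula** -/
theorem sec_mul (x y : Q.Wt) :
    Q.sec x * Q.sec y = inl (D.τ (ls D x.left (Q.aE x.right y.left))) * Q.sec (x * y) := by
  refine SemidirectProduct.ext ?_ (one_mul _).symm
  show P.nw x.left * Q.φ x.right (P.nw y.left) = _ * Q.φ 1 (P.nw (x.left * _))
  rw [Pd.nw (Q.mem _), nw_mul, map_one]
  rfl

open Classical in
theorem sec_mul' (x y : Q.Wt) : Q.sec x * Q.sec y = inl (D.τ (∏ r ∈ roots D,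
    if 0 ≤ r ∧ ¬ 0 ≤ Q.ra x⁻¹ r ∧ 0 ≤ Q.ra (x * y)⁻¹ r then coch (D.cor r) (-1) else 1)) * Q.sec (x * y) := by
  rw [sec_mul, ls]
  (with_reducible congr 3)
  exact Finset.prod_congr rfl fun r h => if_congr (ls_iff x y (mem_roots.1 h)) rfl rfl

theorem ac_mul (x y : Q.Wt) (c : D.R → kˣ) : Q.ac (x * y) c = Q.ac x (Q.ac y c) := D.τ_inj (by
  rw [τ_ac x, τ_ac y, ← MulAut.mul_apply, ← map_mul, sec_mul, map_mul, MulAut.mul_apply, ← τ_ac, au_inl, ← map_inv,
    ← map_mul, ← map_mul, mul_inv_cancel_comm])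

theorem ac_one (c : D.R → kˣ) : Q.ac 1 c = c := D.τ_inj (by rw [τ_ac, sec_one, map_one]; rfl)

theorem ac_inl (w : D.W) (c : D.R → kˣ) : Q.ac (inl w) c = mon (D.Wm w) c := D.τ_inj (by
  rw [τ_ac, sec_inl, au_inl, D.conj_τ (P.rp_nw w)])

theorem τ_ac_inr (e : E) (c : D.R → kˣ) : D.τ (Q.ac (inr e) c) = Q.φ e (D.τ c) := by rw [τ_ac, sec_inr, au_inr]

theorem eq_one_of_sec {x : Q.Wt} {t : Y} (ht : t ∈ D.T) (h : Q.sec x = inl t) : x = 1 := by
  have h1 : P.nw x.left = t := congrArg SemidirectProduct.left h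
  have h2 : x.right = 1 := congrArg (SemidirectProduct.right (φ := Q.φ)) h
  exact SemidirectProduct.ext (D.rp_unique (P.rp_nw _) (rp_of_mem (h1 ▸ ht))) h2

/-- every element of `N ⋊ E` is the product of an element of `T` and a canonical representative -/
theorem exists_sec {a : Q.A} {w : D.W} (ha : D.Rp w a.left) : ∃ c, a = inl (D.τ c) * Q.sec ⟨w, a.right⟩ := by
  obtain ⟨c, hc⟩ := exists_nw P ha
  exact ⟨c, SemidirectProduct.ext (by simpa [sec] using hc) (one_mul _).symm⟩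

/-- a root is trivial on the image of `c` iff the original root is trivial on `c` -/
theorem chr_ac_eq_one (x : Q.Wt) (h : D.Rt r) (c : D.R → kˣ) :
    chr (D.wt (Q.ra x r)) (Q.ac x c) = 1 ↔ chr (D.wt r) c = 1 := by
  have key : ∀ {r : D.I → ℤ} (h : D.Rt r) (c : D.R → kˣ),
      chr (D.wt r) c = 1 ↔ ∀ y ∈ D.X r, D.τ c * y * (D.τ c)⁻¹ = y := fun {r} h c => by
    refine ⟨fun h1 y hy => ?_, fun h1 => ?_⟩
    · obtain ⟨u, rfl⟩ := (D.mem_X r h y).1 hy
      rw [D.tor r h, h1, Units.val_one, one_mul]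
    · have h2 := h1 _ (D.x_mem h 1)
      rw [D.tor r h, mul_one] at h2
      exact Units.ext (D.x_inj r h h2)
  rw [key (ra_root x h), key h, τ_ac]
  refine ⟨fun h1 y hy => (Q.au (Q.sec x)).injective ?_, fun h1 y hy => ?_⟩
  · rw [map_mul, map_mul, map_inv]
    exact h1 _ ((au_mem_X (a := Q.sec x) (P.rp_nw _) h y).2 hy)
  · obtain ⟨y, rfl⟩ := (Q.au (Q.sec x)).surjective y
    rw [← map_inv, ← map_mul, ← map_mul, h1 y ((au_mem_X (a := Q.sec x) (P.rp_nw _) h y).1 hy)]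

end Pe

end Cfsg.Agent.MO.Ti
end

-- part: MO/Ti/Au
section
/-!
# Automorphisms of the frame are pinned up to a diagonal automorphism (helper30)

* `Fa D α` : `α` stabilises `G`, `T`, `U`; `Fa.exists_perm` : it permutes the simple root groups;
* `Fa.isPd` : criterion for pinned automorphisms; `au_pinned` : `Au D α A` gives `t ∈ T` with `conj t * α ∈ PA P`;
* `IsPd.ext` : uniqueness; `pinned_comm` : the pinned part commutes with `F`.
-/

set_option autoImplicit false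
set_option linter.unusedSectionVars false

namespace Cfsg.Agent.MO.Ti

open CoxeterSystem Cfsg.Agent.DL Cfsg.Agent.Nodes.Reps Cfsg.Agent.Nodes.BNOf Cfsg.Agent.Nodes Cfsg.Agent.KZ.Mts
  Cfsg.Agent.ChevalleyStructure.CoxeterGeom Cfsg.Agent.Tits.Roots Matrix Cfsg.Agent.Nodes.Coroot Cfsg.Agent.DL.PP

section field

variable {p : ℕ} [Fact p.Prime] {k : Type} [Field k] [CharP k p] [IsAlgClosed k]

/-- a monomial field automorphism is a power of the Frobenius map -/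
theorem eq_fz_of_zpow (ψ : RingAut k) {m : ℤ} (h : ∀ u : kˣ, ψ u = (u ^ m : kˣ)) : ∃ j : ℕ, ψ = fz p k j := by
  classical
  have hp : p.Prime := Fact.out
  have hm : m ≠ 0 := fun e => by
    refine one_ne_zero (eq_zero_of_zpow (k := k) (n := 1) fun u => Units.ext (ψ.injective ?_))
    rw [zpow_one, h, e, zpow_zero, Units.val_one, map_one]
  obtain ⟨j, n, hn, e⟩ := Nat.exists_eq_pow_mul_and_not_dvd (Int.natAbs_ne_zero.2 hm) p hp.ne_one
  have : NeZero (n : k) := ⟨fun h0 => hn ((CharP.cast_eq_zero_iff k p n).1 h0)⟩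
  have : NeZero n := ⟨fun h0 => hn (h0 ▸ dvd_zero p)⟩
  obtain ⟨ζ, hζ⟩ := HasEnoughRootsOfUnity.exists_primitiveRoot k n
  have h1 : n = 1 := by
    lift ζ to kˣ using hζ.isUnit (NeZero.ne n)
    have h2 : ζ ^ m = 1 := by
      have h3 : ζ ^ m.natAbs = 1 := by
        rw [e, mul_comm, pow_mul, show ζ ^ n = 1 from Units.ext hζ.pow_eq_one, one_pow]
      rcases Int.natAbs_eq m with h4 | h4
      · rw [h4, zpow_natCast, h3]
      · rw [h4, _root_.zpow_neg, zpow_natCast, h3, inv_one]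
    have h3 : (ζ : k) = 1 := ψ.injective (by rw [h, h2, Units.val_one, map_one])
    exact hζ.unique (h3 ▸ IsPrimitiveRoot.one)
  rw [h1, mul_one] at e
  have h2 : ∀ {ψ : RingAut k} {χ : RingAut k}, (∀ u : kˣ, ψ u = χ u) → ψ = χ := fun h => RingEquiv.ext fun u => by
    by_cases h0 : u = 0
    · rw [h0, map_zero, map_zero]
    · exact h (Units.mk0 u h0)
  rcases Int.natAbs_eq m with h4 | h4
  · exact ⟨j, h2 fun u => by rw [h, h4, e, zpow_natCast, fz_nat, Units.val_pow_eq_pow_val]⟩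
  · exfalso
    have h5 : ∀ u : k, ψ (fz p k (-j) u) = u⁻¹ := fun u => by
      by_cases h0 : u = 0
      · rw [h0, map_zero, map_zero, _root_.inv_zero]
      · lift u to kˣ using Ne.isUnit h0
        rw [← coe_fu, h, h4, e, _root_.zpow_neg, zpow_natCast, ← fu_nat, ← fu_add, add_neg_cancel, fu_zero,
          Units.val_inv_eq_inv_val]
    obtain ⟨u, hu⟩ := Infinite.exists_notMem_finset
      ((Polynomial.X * (Polynomial.X + 1) * (Polynomial.X ^ 2 + Polynomial.X + 1) : Polynomial k).roots.toFinset)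
    rw [Multiset.mem_toFinset, Polynomial.mem_roots (Polynomial.Monic.ne_zero (by monicity!)), Polynomial.IsRoot] at hu
    simp only [Polynomial.eval_mul, Polynomial.eval_add, Polynomial.eval_pow, Polynomial.eval_X, Polynomial.eval_one,
      mul_eq_zero, not_or] at hu
    have h6 := h5 (u + 1)
    rw [map_add, map_add, h5, h5, inv_one] at h6
    have h7 := hu.1.1
    have h8 := hu.1.2
    field_simp at h6
    exact hu.2 (by linear_combination h6)

theorem eq_fz_of_sq (ψ : RingAut k) {n : ℤ} (h : ∀ u : kˣ, ψ (u ^ 2) = (u ^ n : kˣ)) : ∃ e : ℤ, ψ = fz p k e := by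
  rcases Int.even_or_odd' n with ⟨m, rfl | rfl⟩
  · obtain ⟨j, hj⟩ := eq_fz_of_zpow (p := p) ψ (m := m) fun u => by
      obtain ⟨v, rfl⟩ := exists_zpow_eq (n := 2) two_ne_zero u
      rw [← _root_.zpow_mul, ← h, zpow_two, Units.val_mul, pow_two]
    exact ⟨j, hj⟩
  · have h1 := h (-1)
    rw [Odd.neg_one_zpow ⟨m, rfl⟩, Units.val_neg, Units.val_one, neg_one_sq, map_one] at h1
    have h2 : p = 2 := (Nat.prime_dvd_prime_iff_eq Fact.out Nat.prime_two).1
      ((CharP.cast_eq_zero_iff k p 2).1 (by push_cast; linear_combination h1))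
    obtain ⟨j, hj⟩ := eq_fz_of_zpow (p := p) (ψ * fz p k 1) (m := 2 * m + 1) fun u => by
      rw [← h]
      exact congrArg ψ ((fz_nat 1 _).trans (by rw [h2, pow_one]))
    refine ⟨j - 1, RingEquiv.ext fun u => ?_⟩
    rw [sub_eq_add_neg, fz_add, ← hj]
    exact congrArg ψ ((fz_zero u).symm.trans ((congrArg (fz p k · u) (add_neg_cancel (1 : ℤ)).symm).trans (fz_add _ _ _)))

end field

variable {p : ℕ} [Fact p.Prime] {k : Type} [Field k] [CharP k p] [IsAlgClosed k] {Y : Type} [Group Y] {N : Type}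
  [Fintype N] [DecidableEq N] {ρ : Y →* GL N k} {F : MulAut Y} {G : Subgroup Y} {D : Datum p ρ F G}
  {P : Pin D} {α β : MulAut Y} {σ : Equiv.Perm D.I} {e : D.I → ℤ}

theorem eq_one_of_sr {w : D.W} (h : ∀ i, 0 ≤ D.act w (sr i)) : w = 1 := by
  by_contra h1
  obtain ⟨i, hi⟩ := D.cs.exists_rightDescent_of_ne_one h1
  exact ((rt D i).act w).not_pos_neg (h i) (down_iff.1 hi)

theorem eq_zero_of_pairing {a : D.I → ℤ} (h : ∀ i, pairing D.A i a = 0) : a = 0 := by
  have := Fintype.ofFinite D.W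
  by_contra h0
  have h1 := form_pos D.cs D.h h0
  rw [form_eq_sum, Finset.sum_eq_zero] at h1
  · exact lt_irrefl _ h1
  intro i _
  have h2 := two_form D.cs D.h i a
  rw [h] at h2
  rw [show form D.cs D.h a (sr i) = 0 by omega, mul_zero]

variable (D) in
/-- the simple roots take arbitrary values -/
theorem exists_χ_sr (s : D.I → kˣ) : ∃ t ∈ D.T, ∀ i, D.χ (sr i) t = s i := by
  have h1 : (Matrix.of fun i j => D.A j i).det ≠ 0 := fun h0 => by
    obtain ⟨v, hv, h⟩ := Matrix.exists_vecMul_eq_zero_iff.2 h0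
    exact hv (eq_zero_of_pairing fun j => (Finset.sum_congr rfl fun i _ => mul_comm _ _).trans (congrFun h j))
  obtain ⟨y, hy⟩ := mon_surj h1 s
  refine ⟨D.τ (∏ j, coch (D.cw j) (y j)), D.τ_mem _, fun i => ?_⟩
  rw [D.χ_τ, map_prod, ← hy, mon_apply, chr_apply]
  exact congrArg _ (Finset.prod_congr rfl fun j _ => by rw [chr_coch, D.pair, pairing_sr]; rfl)

theorem X_eq {a : D.I → ℤ} (ha : D.Rt a) (h0 : 0 ≤ a) :
    D.X a = D.U ⊓ Subgroup.centralizer {t | t ∈ D.T ∧ D.χ a t = 1} := by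
  rw [D.uni_pos.inf_centralizer fun _ h => h.1]
  refine le_antisymm (RGD.le_Sup (S := _ ∩ D.Sz _) ⟨⟨ha, h0⟩, ha, fun _ h => h.2⟩) (RGD.Sup_le fun b hb => ?_)
  obtain rfl : b = a := by_contra fun h1 => by
    have h2 := DL.Base.cpr_mul_lt hb.1.1 ha h1 fun e => hb.1.1.not_pos_neg hb.1.2 (e ▸ neg_nonpos.2 h0)
    refine h2.ne (eq_of_sub_eq_zero (eq_zero_of_zpow (k := k) fun u => Units.ext ?_))
    have h3 := hb.2.2 (hr D a (u ^ cpr D.cs D.h a b) * hr D b (u ^ (-2 : ℤ))) ⟨mul_mem (hr_mem _ _ _) (hr_mem _ _ _), by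
      rw [D.χ_mul _ (hr_mem _ _ _) (hr_mem _ _ _), χ_hr ha, χ_hr hb.1.1, cpr_self _ _ ha, ← Units.val_mul,
        ← _root_.zpow_mul, ← _root_.zpow_mul, ← _root_.zpow_add, mul_comm, neg_mul, add_neg_cancel, zpow_zero,
        Units.val_one]⟩
    rw [D.χ_mul _ (hr_mem _ _ _) (hr_mem _ _ _), χ_hr ha, χ_hr hb.1.1, cpr_self _ _ hb.1.1, ← Units.val_mul,
      ← _root_.zpow_mul, ← _root_.zpow_mul, ← _root_.zpow_add, mul_comm] at h3
    exact h3
  exact le_rfl

variable (D) in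
/-- an automorphism of the frame -/
structure Fa (α : MulAut Y) : Prop where
  memG : ∀ y, α y ∈ G ↔ y ∈ G
  memT : ∀ y, α y ∈ D.T ↔ y ∈ D.T
  memU : ∀ y, α y ∈ D.U ↔ y ∈ D.U

theorem Fa.of_au {A : Matrix D.R D.R ℤ} (h : Au D α A) : Fa D α := ⟨h.memG, h.memT, h.memU⟩

theorem Fa.of_mem (h : α ∈ PA P) : Fa D α := ⟨Pd.memG h, Pd.memT h, Pd.memU h⟩

theorem Fa.conj {t : Y} (ht : t ∈ D.T) : Fa D (MulAut.conj t) :=
  ⟨fun y => by rw [MulAut.conj_apply, mul_mem_cancel_right (inv_mem (D.T_le_G ht)), mul_mem_cancel_left (D.T_le_G ht)],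
    fun y => by rw [MulAut.conj_apply, mul_mem_cancel_right (inv_mem ht), mul_mem_cancel_left ht],
    fun y => ⟨fun h => by simpa [mul_assoc] using D.conj_mem_U_of_T (inv_mem ht) h, D.conj_mem_U_of_T ht⟩⟩

theorem Fa.mul (h : Fa D α) (h' : Fa D β) : Fa D (α * β) :=
  ⟨fun y => (h.memG _).trans (h'.memG y), fun y => (h.memT _).trans (h'.memT y), fun y => (h.memU _).trans (h'.memU y)⟩

theorem Fa.inv (h : Fa D α) : Fa D α⁻¹ :=
  ⟨fun y => by rw [← h.memG, MulAut.apply_inv_self], fun y => by rw [← h.memT, MulAut.apply_inv_self],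
    fun y => by rw [← h.memU, MulAut.apply_inv_self]⟩

theorem Fa.mem_NN (h : Fa D α) {m : Y} (hm : m ∈ D.NN) : α m ∈ D.NN :=
  D.mem_NN_of_conj ((h.memG _).2 (D.NN_le_G hm)) fun t ht => by
    obtain ⟨t, rfl⟩ := α.surjective t
    rw [← map_inv, ← map_mul, ← map_mul, h.memT]
    exact D.conj_mem_T hm ((h.memT _).1 ht)

theorem Fa.exists_le (h : Fa D α) {a : D.I → ℤ} (ha : D.Rt a) (h0 : 0 ≤ a) :
    ∃ b, D.Rt b ∧ 0 ≤ b ∧ ∀ y, α y ∈ D.X b → y ∈ D.X a := by
  have h1 : ∀ y, α y ∈ D.S (RGD.Pos D.cs D.h ∩ D.Sz (α '' {t | t ∈ D.T ∧ D.χ a t = 1})) ↔ y ∈ D.X a := fun y => by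
    rw [← D.uni_pos.inf_centralizer (by rintro _ ⟨t, ht, rfl⟩; exact (h.memT t).2 ht.1), X_eq ha h0, Subgroup.mem_inf,
      Subgroup.mem_inf, h.memU, Subgroup.mem_centralizer_iff, Subgroup.mem_centralizer_iff, Set.forall_mem_image]
    simp only [← map_mul, EmbeddingLike.apply_eq_iff_eq]
  obtain ⟨b, hb⟩ : (RGD.Pos D.cs D.h ∩ D.Sz (α '' {t | t ∈ D.T ∧ D.χ a t = 1})).Nonempty := by
    by_contra h2
    have h3 := (h1 _).2 (D.x_mem ha 1)
    rw [Set.not_nonempty_iff_eq_empty.1 h2] at h3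
    have h4 : α (D.x a 1) = 1 := (RGD.Sup_le (K := ⊥) fun _ h => h.elim) h3
    rw [EmbeddingLike.map_eq_one_iff, D.x_eq_one_iff ha] at h4
    exact one_ne_zero h4
  exact ⟨b, hb.1.1, hb.1.2, fun y hy => (h1 y).1 (RGD.le_Sup (X := D.X) hb hy)⟩

theorem eq_of_X_le {a b : D.I → ℤ} (ha : D.Rt a) (hb : D.Rt b) (h : D.X a ≤ D.X b) : a = b := by_contra fun e =>
  one_ne_zero ((D.x_eq_one_iff ha).1 (D.eq_one_of_mem_X_X ha hb e (D.x_mem ha 1) (h (D.x_mem ha 1))))

/-- the positive root groups are permuted -/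
theorem Fa.exists_root (h : Fa D α) {a : D.I → ℤ} (ha : D.Rt a) (h0 : 0 ≤ a) :
    ∃ b, D.Rt b ∧ 0 ≤ b ∧ ∀ y, α y ∈ D.X b ↔ y ∈ D.X a := by
  obtain ⟨b, hb, hb0, h1⟩ := h.exists_le ha h0
  obtain ⟨c, hc, -, h2⟩ := h.inv.exists_le hb hb0
  have h3 : ∀ y ∈ D.X c, α y ∈ D.X b := fun y hy => h2 _ (by rwa [MulAut.inv_apply_self])
  obtain rfl := eq_of_X_le hc ha fun y hy => h1 y (h3 y hy)
  exact ⟨b, hb, hb0, fun y => ⟨h1 y, h3 y⟩⟩

theorem Fa.rp_simple (h : Fa D α) {i : D.I} {b : D.I → ℤ} (hb : D.Rt b) (h1 : ∀ y, α y ∈ D.X b ↔ y ∈ D.X (sr i)) {n : Y}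
    (hn : D.Rp (D.cs.simple i) n) : ∃ j, b = sr j ∧ D.Rp (D.cs.simple j) (α n) := by
  obtain ⟨w, hw⟩ := h.mem_NN ⟨_, hn⟩
  have h2 : ∀ c, D.Rt c → 0 ≤ c → c ≠ b → 0 ≤ D.act w c := fun c hc h0 hcb => by
    obtain ⟨d, hd, hd0, h3⟩ := h.inv.exists_root hc h0
    have h4 : d ≠ sr i := fun e => hcb (eq_of_X_le hc hb fun y hy => by
      rw [← MulAut.apply_inv_self Y α y, h1, ← e, h3]; exact hy)
    have h5 : α n * D.x c 1 * (α n)⁻¹ ∈ D.U := by
      rw [← MulAut.apply_inv_self Y α (D.x c 1), ← map_inv, ← map_mul, ← map_mul, h.memU]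
      exact RGD.le_Sup (S := RGD.Pos D.cs D.h) ⟨hd.act _, hd.simple_nonneg hd0 i h4⟩
        (D.conj_mem hn hd ((h3 _).2 (D.x_mem hc 1)))
    by_contra h6
    have h7 := D.eq_one_of_mem_U_of_mem_UN h5 (RGD.le_Sup (S := OppDec.Neg D.cs D.h)
      ⟨hc.act w, (hc.act w).not_nonneg_iff.1 h6⟩ (D.conj_mem hw hc (D.x_mem hc 1)))
    rw [mul_inv_eq_one, mul_eq_left, D.x_eq_one_iff hc] at h7
    exact one_ne_zero h7
  have h3 : w ≠ 1 := fun e => KFacts.RgdDiag.simple_ne_one i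
    (D.rp_unique hn (rp_of_mem ((h.memT _).1 (Rp.mem_of_one (e ▸ hw)))))
  obtain ⟨j, hj⟩ := D.cs.exists_rightDescent_of_ne_one h3
  have h4 := down_iff.1 hj
  obtain rfl : sr j = b := by_contra fun e => ((rt D j).act w).not_pos_neg (h2 _ (rt D j) (sr_nonneg j) e) h4
  have h5 : w * D.cs.simple j = 1 := eq_one_of_sr fun l => by
    rw [act_mul]
    by_cases e : l = j
    · rw [e, act_simple, act_neg]
      exact neg_nonneg.2 h4
    · refine h2 _ ((rt D l).act _) ((rt D l).simple_nonneg (sr_nonneg l) j fun e' => e (sr_inj e')) fun e' => ?_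
      have h6 := act_inv e'
      rw [inv_simple, act_simple] at h6
      exact (rt D l).not_pos_neg (sr_nonneg l) (h6 ▸ neg_nonpos.2 (sr_nonneg j))
  rw [mul_eq_one_iff_eq_inv, inv_simple] at h5
  exact ⟨j, rfl, h5 ▸ hw⟩

/-- the simple root groups are permuted -/
theorem Fa.exists_perm (h : Fa D α) : ∃ σ : Equiv.Perm D.I, ∀ i y, α y ∈ D.X (sr (σ i)) ↔ y ∈ D.X (sr i) := by
  have h1 : ∀ i, ∃ j, ∀ y, α y ∈ D.X (sr j) ↔ y ∈ D.X (sr i) := fun i => by
    obtain ⟨b, hb, -, h1⟩ := h.exists_root (rt D i) (sr_nonneg i)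
    obtain ⟨j, rfl, -⟩ := h.rp_simple hb h1 (Nodes.Reps.rp_simple D.cs D.nsys i)
    exact ⟨j, h1⟩
  choose σ hσ using h1
  exact ⟨Equiv.ofBijective σ (Finite.injective_iff_bijective.1 fun i j e => sr_inj (eq_of_X_le (rt D i) (rt D j)
    fun y hy => (hσ j y).1 (e ▸ (hσ i y).2 hy))), hσ⟩

theorem eq_n_of_rel {i : D.I} {n : Y} (hn : D.Rp (D.cs.simple i) n)
    (h : n * P.x i 1 * n⁻¹ = P.x i (-1) * n * P.x i (-1)) : n = P.n i := by
  have h' := P.pn i
  obtain ⟨c, hc⟩ := (D.mem_T _).1 (hn.inv.unique h'.rp.inv)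
  obtain rfl : n = D.τ c * P.n i := by rw [hc]; group
  have h1 := h'.rel 1
  simp only [inv_one, map_one, one_mul, Units.val_one] at h1
  have h3 : D.τ c * P.n i * P.x i 1 * (D.τ c * P.n i)⁻¹ = _ :=
    (by group : _ = D.τ c * (P.n i * P.x i 1 * (P.n i)⁻¹) * (D.τ c)⁻¹).trans (by
      rw [Pin.x, h1, ← conj_mul, ← conj_mul, D.tor _ (rt D i)])
  have h4 := (uniq3 hn (by rw [τ_n h'.rp]; exact rp_T (hh_mem D i _) h'.rp) (h.symm.trans h3)).1
  rw [eq_mul_inv_iff_mul_eq, mul_eq_left] at h4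
  rw [h4, one_mul]

/-- **criterion for pinned automorphisms** -/
theorem Fa.isPd (h : Fa D α) (hx : ∀ i a, α (P.x i a) = P.x (σ i) (fz p k (e i) a)) : IsPd P α σ e := by
  refine ⟨h.memT, hx, fun i => ?_⟩
  obtain ⟨j, hj, h1⟩ := h.rp_simple (i := i) (rt D (σ i)) (fun y => ⟨fun h1 => by
    obtain ⟨a, ha⟩ := P.exists_x h1
    rw [← fz_neg (p := p) (-e i) a, neg_neg, ← hx] at ha
    exact α.injective ha ▸ P.x_mem _ _, fun h1 => by
    obtain ⟨a, rfl⟩ := P.exists_x h1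
    exact hx i a ▸ P.x_mem _ _⟩) (P.rp i)
  obtain rfl := sr_inj hj
  have h2 := congrArg α ((P.pn i).rel 1)
  simp only [inv_one, map_one, one_mul, Units.val_one, map_mul, map_inv] at h2
  refine eq_n_of_rel h1 ?_
  have h3 := hx i 1
  have h4 := hx i (-1)
  rw [map_one] at h3
  rw [map_neg, map_one] at h4
  rw [← h3, ← h4]
  exact h2

/-- the action on a simple root group -/
theorem au_x {A : Matrix D.R D.R ℤ} (h : Au D α A) {i j : D.I} (h1 : ∀ y, α y ∈ D.X (sr j) ↔ y ∈ D.X (sr i)) :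
    ∃ (c : kˣ) (e : ℤ), ∀ a, α (P.x i a) = P.x j (c * fz p k e a) := by
  choose f hf using fun a => P.exists_x ((h1 _).2 (P.x_mem i a))
  have hi : ∀ l, Function.Injective (P.x l) := fun l a b e => mul_left_cancel₀ (P.u l).ne_zero (D.x_inj _ (rt D l) e)
  have h2 : ∀ a b, f (a + b) = f a + f b := fun a b => hi j (by rw [hf, P.x_add, P.x_add, hf, hf, map_mul])
  have h3 : Function.Bijective f := ⟨fun a b e => hi i (α.injective (by rw [← hf, ← hf, e])), fun b => by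
    obtain ⟨y, hy⟩ := α.surjective (P.x j b)
    obtain ⟨a, rfl⟩ := P.exists_x ((h1 y).1 (hy ▸ P.x_mem j b))
    exact ⟨a, hi j ((hf a).trans hy)⟩⟩
  have h4 : ∀ t ∈ D.T, ∀ a, f (D.χ (sr i) t * a) = D.χ (sr j) (α t) * f a := fun t ht a => hi j (by
    rw [hf, Pin.x, Pin.x, mul_left_comm, mul_left_comm (P.u j : k), ← D.tor' (rt D i) ht,
      ← D.tor' (rt D j) ((h.memT t).2 ht), map_mul, map_mul, map_inv]
    exact congrArg (fun z => α t * z * (α t)⁻¹) (hf a).symm)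
  have h0 : f 0 = 0 := by simpa using h2 0 0
  have h5 : f 1 ≠ 0 := fun e => one_ne_zero (h3.1 (e.trans h0.symm))
  have h6 : ∀ a b, (f 1)⁻¹ * f (a * b) = (f 1)⁻¹ * f a * ((f 1)⁻¹ * f b) := fun a b => by
    by_cases ha : a = 0
    · simp [ha, h0]
    obtain ⟨t, ht, rfl⟩ := D.χ_surj (rt D i) ha
    rw [h4 t ht, ← mul_one (D.χ (sr i) t), h4 t ht]
    field_simp
  let ψ : RingAut k := RingEquiv.ofBijective
    ({ toFun := fun a => (f 1)⁻¹ * f a
       map_one' := inv_mul_cancel₀ h5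
       map_mul' := h6
       map_zero' := by rw [h0, mul_zero]
       map_add' := fun a b => by rw [h2, mul_add] } : k →+* k)
    ((mulLeft_bijective₀ _ (inv_ne_zero h5)).comp h3)
  obtain ⟨e, he⟩ := eq_fz_of_sq (p := p) ψ (n := D.wt (sr j) ⬝ᵥ A *ᵥ D.cw i) fun u => by
    have h7 := h4 _ (hh_mem D i u) 1
    rw [χ_hh, pairing_sr, D.h.diag, hh_apply, h.tau, mon_coch, D.χ_τ, chr_coch, mul_one, zpow_two, Units.val_mul,
      ← pow_two] at h7
    show (f 1)⁻¹ * f _ = _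
    rw [h7, mul_comm, mul_inv_cancel_right₀ h5]
    rfl
  refine ⟨Units.mk0 _ h5, e, fun a => ?_⟩
  rw [← hf, ← he]
  exact congrArg _ (mul_inv_cancel_left₀ h5 _).symm

variable (P) in
/-- **every automorphism of the frame is pinned up to a diagonal automorphism** -/
theorem au_pinned {A : Matrix D.R D.R ℤ} (h : Au D α A) : ∃ t ∈ D.T, MulAut.conj t * α ∈ PA P := by
  obtain ⟨σ, hσ⟩ := (Fa.of_au h).exists_perm
  choose c e hc using fun i => au_x (P := P) h (hσ i)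
  obtain ⟨t, ht, h1⟩ := exists_χ_sr D fun j => (c (σ.symm j))⁻¹
  refine ⟨t, ht, (((Fa.conj ht).mul (Fa.of_au h)).isPd (σ := σ) (e := e) fun i a => ?_).mem⟩
  rw [MulAut.mul_apply, hc, MulAut.conj_apply, Pin.x, D.tor' (rt D _) ht, h1, Equiv.symm_apply_apply, mul_left_comm,
    Units.inv_mul_cancel_left, Pin.x]

/-- a homomorphism on `G` is determined by its values on `T`, the simple root groups and the `n i` -/
theorem ext_G {H : Type} [Group H] {f g : Y →* H} (h1 : ∀ t ∈ D.T, f t = g t) (h2 : ∀ i a, f (P.x i a) = g (P.x i a))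
    (h3 : ∀ i, f (P.n i) = g (P.n i)) {y : Y} (hy : y ∈ G) : f y = g y := by
  have h4 : ∀ w, f (P.nw w) = g (P.nw w) := fun w => by
    induction w using ind_up D.cs with
    | h1 => rw [P.nw_one, map_one, map_one]
    | h w i h ih => rw [P.nw_up h, map_mul, map_mul, ih, h3]
  have h5 : D.U ≤ f.eqLocus g := RGD.Sup_le fun r hr' y hy => by
    obtain ⟨⟨w, i, rfl⟩, -⟩ := hr'
    rw [← Datum.act, ← D.conj_rp (P.rp_nw w) (rt D i), mem_cj] at hy
    obtain ⟨a, ha⟩ := P.exists_x hy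
    have h6 : y = P.nw w * P.x i a * (P.nw w)⁻¹ := by rw [ha]; group
    show f y = g y
    rw [h6, map_mul, map_mul, map_mul, map_mul, map_inv, map_inv, h4, h2]
  obtain ⟨w, u, hu, m, hm, v, hv, rfl⟩ := D.exists_normal_form hy
  obtain ⟨c, rfl⟩ := exists_nw P hm
  simp only [map_mul]
  rw [h5 hu, h5 (D.NW_le_U w hv), h1 _ (D.τ_mem c), h4]

theorem IsPd.ext (h : IsPd P α σ e) (h' : IsPd P β σ e) (hT : ∀ t ∈ D.T, α t = β t) {y : Y} (hy : y ∈ G) : α y = β y :=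
  ext_G (f := α.toMonoidHom) (g := β.toMonoidHom) hT (fun i a => (h.x i a).trans (h'.x i a).symm)
    (fun i => (h.n i).trans (h'.n i).symm) hy

/-- an element of `T` which is killed by the simple roots is central -/
theorem central_of_χ {t : Y} (ht : t ∈ D.T) (h : ∀ i, D.χ (sr i) t = 1) {y : Y} (hy : y ∈ G) : t * y * t⁻¹ = y := by
  obtain ⟨u, n, hn⟩ : Nonempty (Pin D) := by
    choose n hn using fun i => exists_pn (D := D) i 1
    exact ⟨⟨_, n, hn⟩⟩
  refine ext_G (P := ⟨u, n, hn⟩) (f := (MulAut.conj t).toMonoidHom) (g := MonoidHom.id Y) (fun s hs => ?_) (fun i a => ?_)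
    (fun i => ?_) hy
  · exact mul_inv_eq_iff_eq_mul.2 (D.T_comm ht hs)
  · exact (D.tor' (rt D i) ht _).trans (by rw [h, one_mul]; rfl)
  · obtain ⟨c, rfl⟩ := (D.mem_T t).1 ht
    have h1 : chr (D.wt (sr i)) c = 1 := Units.ext ((D.χ_τ _ _).symm.trans (h i))
    exact (τ_n (hn i).rp c).trans (by rw [h1, map_one, one_mul]; rfl)

/-- a pinned inner-diagonal automorphism is trivial on `G` -/
theorem χ_eq_one_of_mem {t : Y} (ht : t ∈ D.T) (h : MulAut.conj t ∈ PA P) (i : D.I) : D.χ (sr i) t = 1 := by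
  obtain ⟨σ, e, h⟩ := h
  have h1 := h.x i 1
  rw [map_one, MulAut.conj_apply, Pin.x, D.tor' (rt D i) ht] at h1
  have h2 : σ i = i := by_contra fun e' => (P.u (σ i)).ne_zero ((mul_one _).symm.trans ((D.x_eq_one_iff (rt D _)).1
    (D.eq_one_of_mem_X_X (rt D (σ i)) (rt D i) (fun e => e' (sr_inj e)) (P.x_mem _ 1)
      (by rw [← Pin.x, ← h1]; exact D.x_mem (rt D i) _))))
  rw [h2, Pin.x, (D.x_inj _ (rt D i)).eq_iff, mul_one] at h1
  exact mul_right_cancel₀ (P.u i).ne_zero (h1.trans (one_mul _).symm)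

/-- the pinned part of an automorphism which commutes with `F` commutes with `F` on `G` -/
theorem pinned_comm (hF : F ∈ PA P) (hα : ∀ y, α (F y) = F (α y)) {t : Y} (ht : t ∈ D.T)
    (h : MulAut.conj t * α ∈ PA P) : (∀ i, D.χ (sr i) (t * (F t)⁻¹) = 1) ∧
      ∀ y ∈ G, (MulAut.conj t * α) (F y) = F ((MulAut.conj t * α) y) := by
  have h0 : ∀ y, (MulAut.conj t * α) (F y) = MulAut.conj (t * (F t)⁻¹) (F ((MulAut.conj t * α) y)) := fun y => by
    show t * α (F y) * t⁻¹ = t * (F t)⁻¹ * F (t * α y * t⁻¹) * (t * (F t)⁻¹)⁻¹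
    rw [hα, map_mul, map_mul, map_inv]
    group
  have h1 : MulAut.conj t * α * F * (F * (MulAut.conj t * α))⁻¹ = MulAut.conj (t * (F t)⁻¹) :=
    mul_inv_eq_iff_eq_mul.2 (MulEquiv.ext h0)
  have h2 := mul_mem ht (inv_mem (D.F_mem_T ht))
  have h3 := χ_eq_one_of_mem h2 (h1 ▸ mul_mem (mul_mem h hF) (inv_mem (mul_mem hF h)))
  exact ⟨h3, fun y hy => (h0 y).trans (central_of_χ h2 h3 (D.F_mem_G ((Pd.memG h y).2 hy)))⟩

/-- the same in the coordinates of the torus -/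
theorem au_dec (hF : F ∈ PA P) {A : Matrix D.R D.R ℤ} (h : Au D α A) :
    ∃ c σ e, IsPd P ((MulAut.conj (D.τ c))⁻¹ * α) σ e ∧
      (∀ y ∈ G, ((MulAut.conj (D.τ c))⁻¹ * α) (F y) = F (((MulAut.conj (D.τ c))⁻¹ * α) y)) ∧
      (∀ i, D.χ (sr i) ((D.τ c)⁻¹ * F (D.τ c)) = 1) ∧
      ∀ y ∈ G, (D.τ c)⁻¹ * F (D.τ c) * y = y * ((D.τ c)⁻¹ * F (D.τ c)) := by
  obtain ⟨t, ht, h1⟩ := au_pinned P h
  obtain ⟨h2, h3⟩ := pinned_comm hF h.comm ht h1
  obtain ⟨c, hc⟩ := (D.mem_T _).1 (inv_mem ht)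
  obtain ⟨σ, e, h1⟩ := h1
  have h4 := mul_mem ht (inv_mem (D.F_mem_T ht))
  refine ⟨c, σ, e, ?_⟩
  rw [hc, map_inv, inv_inv, inv_inv, map_inv]
  exact ⟨h1, h3, h2, fun y hy => mul_inv_eq_iff_eq_mul.1 (central_of_χ h4 h2 hy)⟩

/-- the action on the values of the simple roots -/
theorem IsPd.χ (h : IsPd P α σ e) (i : D.I) {t : Y} (ht : t ∈ D.T) :
    D.χ (sr (σ i)) (α t) = fz p k (e i) (D.χ (sr i) t) := by
  have h1 : α (t * P.x i 1 * t⁻¹) = α t * P.x (σ i) 1 * (α t)⁻¹ := by rw [map_mul, map_mul, map_inv, h.x, map_one]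
  rw [Pin.x, Pin.x, D.tor' (rt D i) ht, D.tor' (rt D _) ((h.memT t).2 ht), mul_left_comm, ← Pin.x, h.x, Pin.x,
    (D.x_inj _ (rt D _)).eq_iff, mul_one, mul_one, mul_comm] at h1
  exact (mul_right_cancel₀ (P.u _).ne_zero h1).symm

/-- compatibility with the Cartan matrix -/
theorem IsPd.cartan (h : IsPd P α σ e) (i j : D.I) (c : kˣ) :
    fu p k (e j) (c ^ D.A i j) = fu p k (e i) c ^ D.A (σ i) (σ j) := by
  have h1 := h.χ j (hh_mem D i c)
  rw [h.hh, χ_hh, χ_hh, pairing_sr, pairing_sr] at h1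
  exact Units.ext h1.symm

theorem IsPd.coxeter (h : IsPd P α σ e) (i j : D.I) : D.M (σ i) (σ j) = D.M i j := by
  rw [← ParSys.Words.orderOf_eq D.cs, ← ParSys.Words.orderOf_eq D.cs, ← h.aw_simple,
    ← h.aw_simple, ← Pd.aw_mul h.mem]
  exact MulEquiv.orderOf_eq (awH P ⟨α, h.mem⟩) _

theorem IsPd.unique {σ' : Equiv.Perm D.I} {e' : D.I → ℤ} (h : IsPd P α σ e) (h' : IsPd P α σ' e') : σ = σ' ∧ e = e' :=
  ⟨Equiv.ext fun i => sr_inj ((h.gr_sr i).symm.trans (h'.gr_sr i)),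
    funext fun i => (h.er_sr i).symm.trans (h'.er_sr i)⟩

end Cfsg.Agent.MO.Ti
end

private theorem dce_f14f6d1238a9 : _root_.True := by
  try have : _root_.True := by simp only [_root_.Cfsg.Agent.MO.Ti.Pe.ex.eq_1]
  try have : _root_.True := by simp only [_root_.Cfsg.Agent.MO.Ti.Pe.ra.eq_1]
  try have : _root_.True := by simp only [_root_.Cfsg.Agent.MO.Ti.Pe.sec.eq_1]
  try have : _root_.True := by simp only [_root_.Cfsg.Agent.MO.Ti.ls.eq_1]
  try have : _root_.True := by simp only [_root_.Cfsg.Agent.MO.Ti.gr.eq_1]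
  try have : _root_.True := by simp only [_root_.Cfsg.Agent.MO.Ti.fz.eq_1]
  try have : _root_.True := by simp only [_root_.Cfsg.Agent.MO.Ti.er.eq_1]
  exact _root_.True.intro
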